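import Mathlib
import Cfsg.Agent.Lib.Helper17.ReeSolv.Defs

/-!
# ReeSolv (S2361, helper17): package [AR3]
-/

set_option autoImplicit false

namespace Cfsg.Agent.Lib.Helper61.ReeSolv

open Cfsg.Agent.Lib.Helper17.ReeSolv

theorem pkgAr3 : PkgAr3 := by
  intro m hm
  obtain ⟨q, hq⟩ : ∃ q, q = 3 ^ (2 * m + 1) := ⟨_, rfl⟩
  rw [← hq]
  have hq3 : q ^ 3 = 3 ^ (3 * (2 * m + 1)) := by rw [hq, ← pow_mul, mul_comm]
  obtain ⟨t, ht'⟩ : ∃ t, t = 3 ^ (2 * m) := ⟨_, rfl⟩
  have hqt : q = 3 * t := by rw [hq, ht', pow_succ, mul_comm]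
  have ht : 1 ≤ t := by rw [ht']; exact Nat.one_le_pow _ _ (by norm_num)
  have h1 : q ^ 3 ≠ 0 := by rw [hq3]; positivity
  have h2 : q ^ 3 + 1 ≠ 0 := by omega
  have h3 : q - 1 ≠ 0 := by omega
  rw [Nat.factorization_mul (Nat.mul_ne_zero h1 h2) h3, Nat.factorization_mul h1 h2]
  simp only [Finsupp.add_apply]
  have f1 : (q ^ 3).factorization 3 = 3 * (2 * m + 1) := by
    rw [hq3, Nat.Prime.factorization_pow Nat.prime_three, Finsupp.single_eq_same]
  have f2 : (q ^ 3 + 1).factorization 3 = 0 := by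
    apply Nat.factorization_eq_zero_of_not_dvd
    intro h
    have h' : 3 ∣ q ^ 3 := by rw [hq3]; exact dvd_pow_self 3 (by omega)
    have h4 := (Nat.dvd_add_right h').1 h
    omega
  have f3 : (q - 1).factorization 3 = 0 := by
    apply Nat.factorization_eq_zero_of_not_dvd
    omega
  rw [f1, f2, f3, add_zero, add_zero]

end Cfsg.Agent.Lib.Helper61.ReeSolv
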