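import Mathlib
import Cfsg.Agent.Lib.Helper17.ReeSolv.Defs

/-!
# ReeSolv (S2361, helper17): package [ARP]

`q ^ 3 + 1 = (q + 1) (q - r + 1) (q + r + 1)` with `r ^ 2 = 3 q`.
-/

set_option autoImplicit false

namespace Cfsg.Agent.Lib.Helper61.ReeSolv

open Cfsg.Agent.Lib.Helper17.ReeSolv

theorem arP_key (p : ℕ) (hp : p.Prime) (hp3 : 3 < p) (q r : ℕ) (hrq : r ^ 2 = 3 * q)
    (hle : r ≤ q) (hq4 : q % 4 = 3) (hpq : ¬ p ∣ q)
    (hd : p ∣ q ^ 3 * (q ^ 3 + 1) * (q - 1)) :
    p ∣ (q - 1) / 2 ∨ p ∣ (q + 1) / 4 ∨ p ∣ q - r + 1 ∨ p ∣ q + r + 1 := by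
  have hp2 : ¬ p ∣ 2 := fun h => by
    have h1 := Nat.le_of_dvd (by norm_num) h
    omega
  have hp4 : ¬ p ∣ 4 := fun h => by
    have h' : p ∣ 2 ^ 2 := by norm_num; exact h
    exact hp2 (hp.dvd_of_dvd_pow h')
  rcases (Nat.Prime.dvd_mul hp).1 hd with h | h
  · rcases (Nat.Prime.dvd_mul hp).1 h with h | h
    · exact absurd (hp.dvd_of_dvd_pow h) hpq
    · obtain ⟨a, rfl⟩ := Nat.exists_eq_add_of_le hle
      have hid : (r + a) ^ 3 + 1 = (r + a + 1) * ((a + 1) * (r + a + r + 1)) := by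
        have hZ : ((r : ℤ)) ^ 2 = 3 * (r + a) := by exact_mod_cast hrq
        have h1 : (((r + a) ^ 3 + 1 : ℕ) : ℤ) =
            (((r + a + 1) * ((a + 1) * (r + a + r + 1)) : ℕ) : ℤ) := by
          push_cast
          linear_combination (r + a + 1 : ℤ) * hZ
        exact_mod_cast h1
      rw [hid] at h
      rcases (Nat.Prime.dvd_mul hp).1 h with h | h
      · right; left
        have h4 : r + a + 1 = 4 * ((r + a + 1) / 4) := by omega
        rw [h4] at h
        rcases (Nat.Prime.dvd_mul hp).1 h with h | h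
        · exact absurd h hp4
        · exact h
      · rcases (Nat.Prime.dvd_mul hp).1 h with h | h
        · right; right; left
          rw [Nat.add_sub_cancel_left]; exact h
        · right; right; right; exact h
  · left
    have h2 : q - 1 = 2 * ((q - 1) / 2) := by omega
    rw [h2] at h
    rcases (Nat.Prime.dvd_mul hp).1 h with h | h
    · exact absurd h hp2
    · exact h

theorem pkgArP : PkgArP := by
  intro m p hm hp hp3 hdvd
  apply arP_key p hp hp3 _ _ _ _ _ _ hdvd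
  · ring
  · exact Nat.pow_le_pow_right (by norm_num) (by omega)
  · rw [pow_succ, pow_mul, Nat.mul_mod, Nat.pow_mod]; norm_num
  · intro h
    have h3 := hp.dvd_of_dvd_pow h
    have h4 := Nat.le_of_dvd (by norm_num) h3
    omega

end Cfsg.Agent.Lib.Helper61.ReeSolv
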