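import Mathlib
import Cfsg.Agent.Lib.Helper17.ReeSolv.Defs

/-!
# ReeSolv (S2361, helper17): package [OMEGA]
-/

set_option autoImplicit false

universe u

namespace Cfsg.Agent.Lib.Helper61.ReeSolv

open Cfsg.Agent.Lib.Helper17.ReeSolv

theorem pkgOmega : PkgOmega.{u} := by
  intro G _ _ D p hp hdvd hcomm
  have hpf : Fact p.Prime := ⟨hp⟩
  let M : Subgroup G :=
    { carrier := {x | x ∈ D ∧ x ^ p = 1}
      one_mem' := ⟨D.one_mem, one_pow p⟩
      mul_mem' := by
        rintro a b ⟨ha, ha'⟩ ⟨hb, hb'⟩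
        refine ⟨D.mul_mem ha hb, ?_⟩
        have hc : Commute a b := hcomm a ha b hb
        rw [hc.mul_pow, ha', hb', one_mul]
      inv_mem' := by
        rintro a ⟨ha, ha'⟩
        exact ⟨D.inv_mem ha, by rw [inv_pow, ha', inv_one]⟩ }
  refine ⟨M, fun x hx => hx.1, ?_, fun x hx => hx.2, ?_⟩
  · obtain ⟨x, hx⟩ := exists_prime_orderOf_dvd_card' p hdvd
    intro hbot
    have h1 : x ^ p = 1 := by rw [← hx]; exact pow_orderOf_eq_one x
    have h2 : (x : G) ^ p = 1 := by
      have h3 := congrArg Subtype.val h1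
      simpa using h3
    have hxM : (x : G) ∈ M := ⟨x.2, h2⟩
    rw [hbot, Subgroup.mem_bot] at hxM
    have h4 : x = 1 := Subtype.ext hxM
    rw [h4, orderOf_one] at hx
    exact hp.one_lt.ne hx
  · intro g hg x hx
    exact ⟨hg x hx.1, by rw [conj_pow, hx.2, mul_one, mul_inv_cancel]⟩

end Cfsg.Agent.Lib.Helper61.ReeSolv
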